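import Cfsg.Agent.Lib.Helper94.SpLagr
import Cfsg.Agent.Lib.Helper94.SpDecomp

set_option autoImplicit false
set_option linter.unusedSectionVars false

namespace Cfsg.Agent.Lib.Helper94.SpGen2

open Cfsg Cfsg.Geo Cfsg.Agent.Lib.Helper94
open scoped MatrixGroups Matrix

variable {F : Type*} [Field F] {m : ℕ}

/-- The standard basis vectors `e_i`. -/
def eB (i : Fin m) : Fin m ⊕ Fin m → F := Pi.single (Sum.inr i) 1

/-- The standard basis vectors `f_i`. -/
def fB (i : Fin m) : Fin m ⊕ Fin m → F := Pi.single (Sum.inl i) 1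

lemma sf_eB_right (z : Fin m ⊕ Fin m → F) (i : Fin m) :
    sympForm m F z (eB i) = - z (Sum.inl i) := by
  rw [sf_eq]
  simp [eB, Pi.single_apply]

lemma sf_fB_right (z : Fin m ⊕ Fin m → F) (i : Fin m) :
    sympForm m F z (fB i) = z (Sum.inr i) := by
  rw [sf_eq]
  simp [fB, Pi.single_apply]

lemma sf_eB_left (z : Fin m ⊕ Fin m → F) (i : Fin m) :
    sympForm m F (eB i) z = z (Sum.inl i) := by
  rw [sf_swap, sf_eB_right, neg_neg]

lemma sf_fB_left (z : Fin m ⊕ Fin m → F) (i : Fin m) :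
    sympForm m F (fB i) z = - z (Sum.inr i) := by
  rw [sf_swap, sf_fB_right]

lemma eB_inl (i j : Fin m) : (eB i : Fin m ⊕ Fin m → F) (Sum.inl j) = 0 := by
  simp [eB]

lemma eB_inr (i j : Fin m) : (eB i : Fin m ⊕ Fin m → F) (Sum.inr j) = if j = i then 1 else 0 := by
  simp [eB, Pi.single_apply]

lemma fB_inr (i j : Fin m) : (fB i : Fin m ⊕ Fin m → F) (Sum.inr j) = 0 := by
  simp [fB]

lemma fB_inl (i j : Fin m) : (fB i : Fin m ⊕ Fin m → F) (Sum.inl j) = if j = i then 1 else 0 := by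
  simp [fB, Pi.single_apply]

lemma eB_ne_zero (i : Fin m) : (eB i : Fin m ⊕ Fin m → F) ≠ 0 := by
  intro h
  have := congrFun h (Sum.inr i)
  rw [eB_inr] at this
  simp at this

lemma fB_ne_zero (i : Fin m) : (fB i : Fin m ⊕ Fin m → F) ≠ 0 := by
  intro h
  have := congrFun h (Sum.inl i)
  rw [fB_inl] at this
  simp at this

/-- The hyperbolic planes `⟨e_i, f_i⟩`. -/
def blk (i : Fin m) : Submodule F (Fin m ⊕ Fin m → F) := Submodule.span F {eB i, fB i}

lemma mem_blk (i : Fin m) (z : Fin m ⊕ Fin m → F) :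
    z ∈ blk i ↔ ∃ α β : F, α • eB i + β • fB i = z := by
  unfold blk
  rw [Submodule.mem_span_pair]

lemma eB_mem_blk (i : Fin m) : (eB i : Fin m ⊕ Fin m → F) ∈ blk i :=
  Submodule.subset_span (by simp)

lemma fB_mem_blk (i : Fin m) : (fB i : Fin m ⊕ Fin m → F) ∈ blk i :=
  Submodule.subset_span (by simp)

lemma blk_orth (i j : Fin m) (hij : i ≠ j) :
    AreOrthogonalFor (sympForm m F) (blk i) (blk j) := by
  intro u hu v hv
  obtain ⟨α, β, rfl⟩ := (mem_blk i u).mp hu
  obtain ⟨α', β', rfl⟩ := (mem_blk j v).mp hv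
  have hji : ¬ j = i := fun h => hij h.symm
  simp only [sf_add_right, sf_smul_right, sf_eB_right, sf_fB_right, Pi.add_apply,
    Pi.smul_apply, smul_eq_mul, eB_inl, eB_inr, fB_inl, fB_inr, if_neg hij, if_neg hji]
  ring

lemma blk_nondeg (i : Fin m) : IsNondegenerateOn (sympForm m F) (blk i) := by
  intro w hw hw0
  obtain ⟨α, β, rfl⟩ := (mem_blk i w).mp hw
  have h1 : sympForm m F (eB i) (α • eB i + β • fB i) = β := by
    simp only [sf_add_right, sf_smul_right, sf_eB_right, sf_fB_right, eB_inl, eB_inr, if_true]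
    ring
  have h2 : sympForm m F (fB i) (α • eB i + β • fB i) = - α := by
    simp only [sf_add_right, sf_smul_right, sf_eB_right, sf_fB_right, fB_inl, fB_inr, if_true]
    ring
  by_cases hβ : β = 0
  · have hα : α ≠ 0 := by
      rintro rfl
      apply hw0
      rw [hβ]
      simp
    refine ⟨⟨fB i, fB_mem_blk i, ?_⟩, ⟨fB i, fB_mem_blk i, ?_⟩⟩
    · rw [h2]; exact neg_ne_zero.mpr hα
    · rw [sf_swap, h2, neg_neg]; exact hα
  · refine ⟨⟨eB i, eB_mem_blk i, ?_⟩, ⟨eB i, eB_mem_blk i, ?_⟩⟩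
    · rw [h1]; exact hβ
    · rw [sf_swap, h1]; exact neg_ne_zero.mpr hβ

lemma vec_decomp (z : Fin m ⊕ Fin m → F) :
    z = ∑ i : Fin m, (z (Sum.inr i) • eB i + z (Sum.inl i) • fB i) := by
  funext idx
  rcases idx with j | j
  · simp [Finset.sum_apply, eB, fB, Pi.single_apply]
  · simp [Finset.sum_apply, eB, fB, Pi.single_apply]

/-- From basis vectors and one mixed vector for each pair of planes to all vectors. -/
theorem all_centers (K : Subgroup (GL (Fin m ⊕ Fin m) F))
    (he : ∀ i : Fin m, (eB i : Fin m ⊕ Fin m → F) ∈ transCenters K)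
    (hf : ∀ i : Fin m, (fB i : Fin m ⊕ Fin m → F) ∈ transCenters K)
    (hR : ∀ a b : Fin m, a ≠ b → ∃ x₀ ∈ blk a, ∃ y₀ ∈ blk b, x₀ ≠ 0 ∧ y₀ ≠ 0 ∧
      (x₀ + y₀ : Fin m ⊕ Fin m → F) ∈ transCenters K) :
    ∀ v : Fin m ⊕ Fin m → F, v ∈ transCenters K := by
  have hD : ∀ i : Fin m, ∀ d ∈ blk i, (d : Fin m ⊕ Fin m → F) ∈ transCenters K := by
    intro i d hd
    obtain ⟨α, β, rfl⟩ := (mem_blk i d).mp hd
    by_cases hα : α = 0
    · rw [hα, zero_smul, zero_add]
      exact smul_mem_transCenters K (hf i) β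
    by_cases hβ : β = 0
    · rw [hβ, zero_smul, add_zero]
      exact smul_mem_transCenters K (he i) α
    refine add_mem_transCenters K (smul_mem_transCenters K (he i) α)
      (smul_mem_transCenters K (hf i) β) ?_
    have : sympForm m F (α • eB i) (β • fB i) = α * β := by
      rw [sf_smul_left, sf_smul_right, sf_fB_right, eB_inr, if_pos rfl]
      ring
    rw [this]
    exact mul_ne_zero hα hβ
  have hpair : ∀ a b : Fin m, a ≠ b → ∀ x ∈ blk a, ∀ y ∈ blk b,
      (x + y : Fin m ⊕ Fin m → F) ∈ transCenters K := by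
    intro a b hab x hx y hy
    obtain ⟨x₀, hx₀, y₀, hy₀, hx₀0, hy₀0, h⟩ := hR a b hab
    exact pair_mem_transCenters K (blk a) (blk b) (hD a) (hD b) (blk_orth a b hab)
      (blk_nondeg a) (blk_nondeg b) hx₀ hy₀ hx₀0 hy₀0 h hx hy
  intro v
  rw [vec_decomp v]
  exact sum_mem_transCenters blk blk_orth blk_nondeg K hD hpair Finset.univ
    (fun i => v (Sum.inr i) • eB i + v (Sum.inl i) • fB i)
    (fun i => (mem_blk i _).mpr ⟨_, _, rfl⟩)

/-! ### Transvection calculus -/

theorem strans_smul (a : Fin m ⊕ Fin m → F) (s c : F) :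
    sympTransGL m (s • a) c = sympTransGL m a (s * s * c) := by
  apply gl_ext
  intro x
  rw [sympTransGL_mulVec, sympTransGL_mulVec, sf_smul_right]
  module

theorem strans_neg (a : Fin m ⊕ Fin m → F) (c : F) :
    sympTransGL m (-a) c = sympTransGL m a c := by
  have : -a = (-1 : F) • a := by simp
  rw [this, strans_smul]
  congr 1
  ring

theorem strans_mul (a : Fin m ⊕ Fin m → F) (c d : F) :
    sympTransGL m a c * sympTransGL m a d = sympTransGL m a (c + d) := by
  apply gl_ext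
  intro x
  rw [gl_mul_mulVec, sympTransGL_mulVec, sympTransGL_mulVec, sympTransGL_mulVec, sf_add_left,
    sf_smul_left, sf_self]
  module

theorem strans_zero_right (a : Fin m ⊕ Fin m → F) : sympTransGL m a 0 = 1 := by
  apply gl_ext
  intro x
  rw [sympTransGL_mulVec, zero_mul, zero_smul, add_zero, Units.val_one, Matrix.one_mulVec]

theorem strans_rule (g : GL (Fin m ⊕ Fin m) F) (hg : g ∈ spGL m F) (a : Fin m ⊕ Fin m → F)
    (c : F) :
    g * sympTransGL m a c
      = sympTransGL m ((g : Matrix (Fin m ⊕ Fin m) (Fin m ⊕ Fin m) F) *ᵥ a) c * g := by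
  rw [← sympTransGL_conj g hg]
  group

theorem strans_pow (a : Fin m ⊕ Fin m → F) (c : F) (n : ℕ) :
    sympTransGL m a c ^ n = sympTransGL m a (n * c) := by
  induction n with
  | zero => rw [pow_zero, Nat.cast_zero, zero_mul, strans_zero_right]
  | succ n ih =>
    rw [pow_succ, ih, strans_mul]
    congr 1
    push_cast
    ring

/-- The scalars `c` with `T_a(c) ∈ K`. -/
def transScalars (K : Subgroup (GL (Fin m ⊕ Fin m) F)) (a : Fin m ⊕ Fin m → F) :
    AddSubgroup F where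
  carrier := {c | sympTransGL m a c ∈ K}
  zero_mem' := by
    show sympTransGL m a 0 ∈ K
    rw [strans_zero_right]
    exact K.one_mem
  add_mem' := by
    intro c d hc hd
    show sympTransGL m a (c + d) ∈ K
    rw [← strans_mul]
    exact K.mul_mem hc hd
  neg_mem' := by
    intro c hc
    show sympTransGL m a (-c) ∈ K
    rw [← sympTransGL_inv]
    exact K.inv_mem hc

lemma mem_transScalars (K : Subgroup (GL (Fin m ⊕ Fin m) F)) (a : Fin m ⊕ Fin m → F) (c : F) :
    c ∈ transScalars K a ↔ sympTransGL m a c ∈ K := Iff.rfl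

lemma mem_transCenters_of_top (K : Subgroup (GL (Fin m ⊕ Fin m) F)) (a : Fin m ⊕ Fin m → F)
    (h : transScalars K a = ⊤) : a ∈ transCenters K := by
  intro c
  rw [← mem_transScalars, h]
  exact AddSubgroup.mem_top c

lemma gl_mulVec_ne_zero (g : GL (Fin m ⊕ Fin m) F) {x : Fin m ⊕ Fin m → F} (hx : x ≠ 0) :
    (g : Matrix (Fin m ⊕ Fin m) (Fin m ⊕ Fin m) F) *ᵥ x ≠ 0 := by
  intro h
  apply hx
  have := gl_inv_mulVec_mulVec g x
  rw [h, Matrix.mulVec_zero] at this
  exact this.symm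

/-- Powers of the Siegel element. -/
theorem siegelSp_pow_mulVec (a b : Fin m ⊕ Fin m → F) (hab : sympForm m F a b = 0) (n : ℕ)
    (x : Fin m ⊕ Fin m → F) :
    ((siegelSp m a b ^ n : GL (Fin m ⊕ Fin m) F) : Matrix (Fin m ⊕ Fin m) (Fin m ⊕ Fin m) F) *ᵥ x
      = x + (n : F) • (sympForm m F x a • b + sympForm m F x b • a) := by
  have hba : sympForm m F b a = 0 := by rw [sf_swap, hab, neg_zero]
  induction n generalizing x with
  | zero => simp
  | succ n ih =>
    rw [pow_succ, gl_mul_mulVec, ih, siegelSp_mulVec a b hab]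
    simp only [sf_add_left, sf_smul_left, sf_self, hab, hba]
    push_cast
    module

/-- The transfer to Mathlib's symplectic group. -/
theorem sp_two_gen_of_centers (a b : GL (Fin m ⊕ Fin m) F) (ha : a ∈ spGL m F)
    (hb : b ∈ spGL m F)
    (h : ∀ v : Fin m ⊕ Fin m → F, v ∈ transCenters (Subgroup.closure {a, b})) :
    ∃ A B : Matrix.symplecticGroup (Fin m) F,
      Subgroup.closure ({A, B} : Set (Matrix.symplecticGroup (Fin m) F)) = ⊤ := by
  let φ : Matrix.symplecticGroup (Fin m) F →* GL (Fin m ⊕ Fin m) F :=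
    (Units.map (Matrix.symplecticGroup (Fin m) F).subtype).comp toUnits.toMonoidHom
  have hφ : ∀ A : Matrix.symplecticGroup (Fin m) F,
      ((φ A : GL (Fin m ⊕ Fin m) F) : Matrix (Fin m ⊕ Fin m) (Fin m ⊕ Fin m) F) = A.1 :=
    fun A => rfl
  have haA : (a : Matrix (Fin m ⊕ Fin m) (Fin m ⊕ Fin m) F) ∈ Matrix.symplecticGroup (Fin m) F :=
    Cfsg.Agent.Lib.Helper13.mem_symplecticGroup_of_sympForm m ((mem_spGL_iff m a).mp ha)
  have hbA : (b : Matrix (Fin m ⊕ Fin m) (Fin m ⊕ Fin m) F) ∈ Matrix.symplecticGroup (Fin m) F :=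
    Cfsg.Agent.Lib.Helper13.mem_symplecticGroup_of_sympForm m ((mem_spGL_iff m b).mp hb)
  refine ⟨⟨a.1, haA⟩, ⟨b.1, hbA⟩, ?_⟩
  have e1 : φ ⟨a.1, haA⟩ = a := Units.ext rfl
  have e2 : φ ⟨b.1, hbA⟩ = b := Units.ext rfl
  have hmap : (Subgroup.closure ({⟨a.1, haA⟩, ⟨b.1, hbA⟩} :
      Set (Matrix.symplecticGroup (Fin m) F))).map φ = Subgroup.closure {a, b} := by
    rw [MonoidHom.map_closure, Set.image_pair, e1, e2]
  rw [eq_top_iff, ← Cfsg.Agent.Lib.Helper8.closure_spTSet, Subgroup.closure_le]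
  rintro A ⟨w, c, hA⟩
  have : φ A = sympTransGL m w c := by
    apply gl_ext
    intro x
    rw [hφ, hA, Cfsg.Agent.Lib.Helper13.sympTransvection_mulVec, sympTransGL_mulVec]
  have hmem : φ A ∈ (Subgroup.closure ({⟨a.1, haA⟩, ⟨b.1, hbA⟩} :
      Set (Matrix.symplecticGroup (Fin m) F))).map φ := by
    rw [hmap, this]
    exact h w c
  obtain ⟨A', hA', hAA'⟩ := hmem
  have hinj : Function.Injective φ := by
    intro X Y hXY
    apply Subtype.ext
    have := congrArg (fun g : GL (Fin m ⊕ Fin m) F =>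
      (g : Matrix (Fin m ⊕ Fin m) (Fin m ⊕ Fin m) F)) hXY
    simpa [hφ] using this
  rw [← hinj hAA']
  exact hA'

end Cfsg.Agent.Lib.Helper94.SpGen2
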