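import Cfsg.Agent.Lib.Helper94.SpGen2.Torus

set_option autoImplicit false
set_option linter.unusedSectionVars false
set_option linter.unusedSimpArgs false

namespace Cfsg.Agent.Lib.Helper94.SpGen2

open Cfsg Cfsg.Geo Cfsg.Agent.Lib.Helper94
open scoped MatrixGroups Matrix

variable {F : Type*} [Field F] {n : ℕ}

lemma rel_hX (s : Fˣ) (c : F) :
    diagGL (hd (n + 1) s) * sympTransGL (n + 1) (eB 0) c
      = sympTransGL (n + 1) (eB 0) ((s : F) * (s : F) * c) * diagGL (hd (n + 1) s) := by
  rw [strans_rule _ (hd_mem s), hd_eB, strans_smul]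

lemma rel_hY (s : Fˣ) (c : F) :
    diagGL (hd (n + 1) s) * sympTransGL (n + 1) (fB (Fin.last n)) c
      = sympTransGL (n + 1) (fB (Fin.last n)) (((s⁻¹ : Fˣ) : F) * ((s⁻¹ : Fˣ) : F) * c)
        * diagGL (hd (n + 1) s) := by
  rw [strans_rule _ (hd_mem s), hd_fB, strans_smul]

lemma rel_tY (s : Fˣ) (c : F) :
    diagGL (td n s) * sympTransGL (n + 1) (fB (Fin.last n)) c
      = sympTransGL (n + 1) (fB (Fin.last n)) ((s : F) * (s : F) * c) * diagGL (td n s) := by
  rw [strans_rule _ (td_mem s), td_fB_last, strans_smul]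

lemma rel_wY (c : F) :
    coxGL n F * sympTransGL (n + 1) (fB (Fin.last n)) c
      = sympTransGL (n + 1) (eB 0) c * coxGL n F := by
  rw [strans_rule _ coxGL_mem, cox_fB_last, strans_neg]

/-- A generator of a cyclic group with more than two elements does not square to one. -/
lemma gen_sq_ne_one {G : Type*} [Group G] [Fintype G] (k : G)
    (hk : ∀ y : G, y ∈ Submonoid.powers k) (hcard : 3 ≤ Fintype.card G) : k * k ≠ 1 := by
  classical
  intro h
  have hall : ∀ y : G, y = 1 ∨ y = k := by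
    intro y
    obtain ⟨j, rfl⟩ := (Submonoid.mem_powers_iff y k).mp (hk y)
    induction j with
    | zero => left; exact pow_zero k
    | succ j ih =>
      rcases ih with h1 | h1
      · right; rw [pow_succ, h1, one_mul]
      · left; rw [pow_succ, h1, h]
  have hsub : (Finset.univ : Finset G) ⊆ {1, k} := by
    intro y _
    rcases hall y with h1 | h1 <;> simp [h1]
  have := Finset.card_le_card hsub
  rw [Finset.card_univ] at this
  have h2 : ({1, k} : Finset G).card ≤ 2 := Finset.card_le_two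
  omega

/-- Case A: fields with at least four elements. -/
theorem caseA [Fintype F] (hq : 4 ≤ Fintype.card F) :
    ∃ a b : GL (Fin (n + 1) ⊕ Fin (n + 1)) F, a ∈ spGL (n + 1) F ∧ b ∈ spGL (n + 1) F ∧
      ∀ v : Fin (n + 1) ⊕ Fin (n + 1) → F, v ∈ transCenters (Subgroup.closure {a, b}) := by
  classical
  obtain ⟨k, hk⟩ := IsCyclic.exists_monoid_generator (α := Fˣ)
  have hkk : k * k ≠ 1 := by
    apply gen_sq_ne_one k hk
    rw [Fintype.card_units]
    omega
  set h : GL (Fin (n + 1) ⊕ Fin (n + 1)) F := diagGL (hd (n + 1) k) with hh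
  set t : GL (Fin (n + 1) ⊕ Fin (n + 1)) F := diagGL (td n k) with ht
  set u : GL (Fin (n + 1) ⊕ Fin (n + 1)) F := uS n F with hu
  set w : GL (Fin (n + 1) ⊕ Fin (n + 1)) F := coxGL n F with hw
  set x : GL (Fin (n + 1) ⊕ Fin (n + 1)) F := sympTransGL (n + 1) (eB 0) 1 with hx
  have hhS : h ∈ spGL (n + 1) F := hd_mem k
  have huS : u ∈ spGL (n + 1) F := uS_mem
  have hwS : w ∈ spGL (n + 1) F := coxGL_mem
  have hxS : x ∈ spGL (n + 1) F := sympTransGL_mem _ _ _
  have haS : h * u ∈ spGL (n + 1) F := (spGL (n + 1) F).mul_mem hhS huS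
  have hbS : x * w ∈ spGL (n + 1) F := (spGL (n + 1) F).mul_mem hxS hwS
  refine ⟨h * u, x * w, haS, hbS, ?_⟩
  set K : Subgroup (GL (Fin (n + 1) ⊕ Fin (n + 1)) F) := Subgroup.closure {h * u, x * w} with hK
  have haK : h * u ∈ K := Subgroup.subset_closure (by simp)
  have hbK : x * w ∈ K := Subgroup.subset_closure (by simp)
  -- the torus element and the mixing element
  have hcomm : Commute h u := hd_uS k
  have hkq : k ^ Fintype.card F = k := by
    apply Units.ext
    rw [Units.val_pow_eq_pow_val, FiniteField.pow_card]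
  have hapow : (h * u) ^ Fintype.card F = h := by
    rw [hcomm.mul_pow, hu, uS_pow_card, mul_one, hh, diagGL_pow, hd_pow, hkq]
  have hhK : h ∈ K := by
    rw [← hapow]
    exact K.pow_mem haK _
  have huK : u ∈ K := by
    have : u = h⁻¹ * (h * u) := by group
    rw [this]
    exact K.mul_mem (K.inv_mem hhK) haK
  have hTK : ∀ s : Fˣ, diagGL (hd (n + 1) s) ∈ K := by
    intro s
    obtain ⟨j, rfl⟩ := (Submonoid.mem_powers_iff s k).mp (hk s)
    rw [← hd_pow, ← diagGL_pow]
    exact K.pow_mem hhK j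
  -- a long root element at `f_n`
  set kk : F := (k : F) with hkkF
  set ki : F := ((k⁻¹ : Fˣ) : F) with hki
  set c1 : F := kk * kk - 1 with hc1
  have e1 : h * (x * w) = (x * w) * (sympTransGL (n + 1) (fB (Fin.last n)) c1 * t) := by
    calc h * (x * w) = (h * x) * w := by group
      _ = sympTransGL (n + 1) (eB 0) (kk * kk * 1) * h * w := by rw [hx, hh, rel_hX]
      _ = sympTransGL (n + 1) (eB 0) (kk * kk * 1) * (h * w) := mul_assoc _ _ _
      _ = sympTransGL (n + 1) (eB 0) (kk * kk * 1) * (w * t) := by rw [hh, hw, hd_cox]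
      _ = (sympTransGL (n + 1) (eB 0) (kk * kk * 1) * w) * t := (mul_assoc _ _ _).symm
      _ = w * sympTransGL (n + 1) (fB (Fin.last n)) (kk * kk * 1) * t := by rw [hw, ← rel_wY]
      _ = w * (sympTransGL (n + 1) (fB (Fin.last n)) 1
            * sympTransGL (n + 1) (fB (Fin.last n)) c1) * t := by
          rw [strans_mul]
          congr 3
          rw [hc1]
          ring
      _ = (w * sympTransGL (n + 1) (fB (Fin.last n)) 1)
            * (sympTransGL (n + 1) (fB (Fin.last n)) c1 * t) := by simp only [mul_assoc]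
      _ = (x * w) * (sympTransGL (n + 1) (fB (Fin.last n)) c1 * t) := by rw [hw, rel_wY]
  have hpK : sympTransGL (n + 1) (fB (Fin.last n)) c1 * t ∈ K := by
    have : sympTransGL (n + 1) (fB (Fin.last n)) c1 * t = (x * w)⁻¹ * (h * (x * w)) := by
      rw [e1, inv_mul_cancel_left]
    rw [this]
    exact K.mul_mem (K.inv_mem hbK) (K.mul_mem hhK hbK)
  have hth : t * h = h * t := diagGL_comm _ _
  set c0 : F := c1 + ki * ki * (-c1) with hc0
  have e2 : (sympTransGL (n + 1) (fB (Fin.last n)) c1 * t) * h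
      * (sympTransGL (n + 1) (fB (Fin.last n)) c1 * t)⁻¹ * h⁻¹
      = sympTransGL (n + 1) (fB (Fin.last n)) c0 := by
    calc (sympTransGL (n + 1) (fB (Fin.last n)) c1 * t) * h
          * (sympTransGL (n + 1) (fB (Fin.last n)) c1 * t)⁻¹ * h⁻¹
        = sympTransGL (n + 1) (fB (Fin.last n)) c1 * (t * h) * t⁻¹
          * (sympTransGL (n + 1) (fB (Fin.last n)) c1)⁻¹ * h⁻¹ := by group
      _ = sympTransGL (n + 1) (fB (Fin.last n)) c1 * (h * t) * t⁻¹
          * (sympTransGL (n + 1) (fB (Fin.last n)) c1)⁻¹ * h⁻¹ := by rw [hth]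
      _ = sympTransGL (n + 1) (fB (Fin.last n)) c1
          * (h * sympTransGL (n + 1) (fB (Fin.last n)) (-c1)) * h⁻¹ := by
          rw [sympTransGL_inv]
          group
      _ = sympTransGL (n + 1) (fB (Fin.last n)) c1
          * (sympTransGL (n + 1) (fB (Fin.last n)) (ki * ki * (-c1)) * h) * h⁻¹ := by
          rw [hh, rel_hY]
      _ = sympTransGL (n + 1) (fB (Fin.last n)) c1
          * sympTransGL (n + 1) (fB (Fin.last n)) (ki * ki * (-c1)) := by group
      _ = sympTransGL (n + 1) (fB (Fin.last n)) c0 := strans_mul _ _ _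
  have hc0K : c0 ∈ transScalars K (fB (Fin.last n)) := by
    rw [mem_transScalars, ← e2]
    exact K.mul_mem (K.mul_mem (K.mul_mem hpK hhK) (K.inv_mem hpK)) (K.inv_mem hhK)
  have hkk1 : kk * kk ≠ 1 := by
    intro h1
    apply hkk
    apply Units.ext
    rw [Units.val_mul, Units.val_one]
    exact h1
  have hki1 : ki * ki ≠ 1 := by
    intro h1
    apply hkk
    have : (k⁻¹ * k⁻¹ : Fˣ) = 1 := by
      apply Units.ext
      rw [Units.val_mul, Units.val_one]
      exact h1
    have h2 : (k * k)⁻¹ = 1 := by rw [mul_inv_rev]; exact this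
    exact inv_eq_one.mp h2
  have hc00 : c0 ≠ 0 := by
    have : c0 = (kk * kk - 1) * (1 - ki * ki) := by rw [hc0, hc1]; ring
    rw [this]
    exact mul_ne_zero (sub_ne_zero.mpr hkk1) (sub_ne_zero.mpr (Ne.symm hki1))
  have hscale : ∀ s : Fˣ, ∀ c ∈ transScalars K (fB (Fin.last n)),
      (s : F) * (s : F) * c ∈ transScalars K (fB (Fin.last n)) := by
    intro s c hc
    rw [mem_transScalars] at hc ⊢
    have e3 := rel_hY (n := n) s⁻¹ c
    rw [inv_inv] at e3
    have : sympTransGL (n + 1) (fB (Fin.last n)) ((s : F) * (s : F) * c)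
        = diagGL (hd (n + 1) s⁻¹) * sympTransGL (n + 1) (fB (Fin.last n)) c
          * (diagGL (hd (n + 1) s⁻¹))⁻¹ := by
      rw [e3]
      group
    rw [this]
    exact K.mul_mem (K.mul_mem (hTK _) hc) (K.inv_mem (hTK _))
  have hsq : ∀ y : F, c0 * y ^ 2 ∈ transScalars K (fB (Fin.last n)) := by
    intro y
    by_cases hy : y = 0
    · rw [hy]
      simp
    · have := hscale (Units.mk0 y hy) c0 hc0K
      rw [Units.val_mk0] at this
      have e : c0 * y ^ 2 = y * y * c0 := by ring
      rw [e]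
      exact this
  have hfC : (fB (Fin.last n) : Fin (n + 1) ⊕ Fin (n + 1) → F) ∈ transCenters K := by
    intro c
    rw [← mem_transScalars]
    obtain ⟨y, z, hyz⟩ := field_diff_squares (c / c0)
    have e : c = c0 * y ^ 2 - c0 * z ^ 2 := by
      rw [← mul_sub, ← hyz, mul_div_cancel₀ _ hc00]
    rw [e]
    exact (transScalars K _).sub_mem (hsq y) (hsq z)
  -- the long root group at `e_0`
  have hbf : ((x * w : GL (Fin (n + 1) ⊕ Fin (n + 1)) F) :
      Matrix (Fin (n + 1) ⊕ Fin (n + 1)) (Fin (n + 1) ⊕ Fin (n + 1)) F) *ᵥ fB (Fin.last n)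
      = - eB 0 := by
    rw [gl_mul_mulVec, hw, cox_fB_last, hx, sympTransGL_mulVec, sf_neg_left, sf_self]
    simp
  have hne0 : (- eB 0 : Fin (n + 1) ⊕ Fin (n + 1) → F) ∈ transCenters K := by
    rw [← hbf]
    exact mulVec_mem_transCenters K _ hbK hbS hfC
  have he0 : (eB 0 : Fin (n + 1) ⊕ Fin (n + 1) → F) ∈ transCenters K := by
    have := smul_mem_transCenters K hne0 (-1)
    simpa using this
  have hxK : x ∈ K := he0 1
  have hwK : w ∈ K := by
    have : w = x⁻¹ * (x * w) := by group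
    rw [this]
    exact K.mul_mem (K.inv_mem hxK) hbK
  exact cox_all_centers K hwK he0 u huK huS (fun j hj =>
    ⟨eB 0, eB_mem_blk 0, eB j, eB_mem_blk j, eB_ne_zero 0, eB_ne_zero j, uS_eB j hj⟩)

end Cfsg.Agent.Lib.Helper94.SpGen2
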