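import Cfsg.Agent.Lib.Helper94.SpGen2.Basis

set_option autoImplicit false
set_option linter.unusedSectionVars false
set_option linter.unusedSimpArgs false

namespace Cfsg.Agent.Lib.Helper94.SpGen2

open Cfsg Cfsg.Geo Cfsg.Agent.Lib.Helper94
open scoped MatrixGroups Matrix

variable {F : Type*} [Field F] {n : ℕ}

/-- The Coxeter-type element `e_0 → e_1 → … → e_n → f_0 → … → f_n → -e_0`, as a linear map. -/
def coxLin (n : ℕ) (F : Type*) [Field F] :
    (Fin (n + 1) ⊕ Fin (n + 1) → F) →ₗ[F] (Fin (n + 1) ⊕ Fin (n + 1) → F) where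
  toFun z := Sum.elim
    (Fin.cases (z (Sum.inr (Fin.last n))) (fun j => z (Sum.inl j.castSucc)))
    (Fin.cases (- z (Sum.inl (Fin.last n))) (fun j => z (Sum.inr j.castSucc)))
  map_add' x y := by
    funext idx
    rcases idx with i | i <;> induction i using Fin.cases <;> simp <;> ring
  map_smul' c x := by
    funext idx
    rcases idx with i | i <;> induction i using Fin.cases <;> simp

/-- Its inverse. -/
def coxInvLin (n : ℕ) (F : Type*) [Field F] :
    (Fin (n + 1) ⊕ Fin (n + 1) → F) →ₗ[F] (Fin (n + 1) ⊕ Fin (n + 1) → F) where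
  toFun z := Sum.elim
    (Fin.lastCases (- z (Sum.inr 0)) (fun j => z (Sum.inl j.succ)))
    (Fin.lastCases (z (Sum.inl 0)) (fun j => z (Sum.inr j.succ)))
  map_add' x y := by
    funext idx
    rcases idx with i | i <;> induction i using Fin.lastCases <;> simp <;> ring
  map_smul' c x := by
    funext idx
    rcases idx with i | i <;> induction i using Fin.lastCases <;> simp

lemma coxLin_inl_zero (z : Fin (n + 1) ⊕ Fin (n + 1) → F) :
    coxLin n F z (Sum.inl 0) = z (Sum.inr (Fin.last n)) := rfl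

lemma coxLin_inl_succ (z : Fin (n + 1) ⊕ Fin (n + 1) → F) (j : Fin n) :
    coxLin n F z (Sum.inl j.succ) = z (Sum.inl j.castSucc) := rfl

lemma coxLin_inr_zero (z : Fin (n + 1) ⊕ Fin (n + 1) → F) :
    coxLin n F z (Sum.inr 0) = - z (Sum.inl (Fin.last n)) := rfl

lemma coxLin_inr_succ (z : Fin (n + 1) ⊕ Fin (n + 1) → F) (j : Fin n) :
    coxLin n F z (Sum.inr j.succ) = z (Sum.inr j.castSucc) := rfl

lemma coxInvLin_inl_last (z : Fin (n + 1) ⊕ Fin (n + 1) → F) :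
    coxInvLin n F z (Sum.inl (Fin.last n)) = - z (Sum.inr 0) := by
  simp [coxInvLin]

lemma coxInvLin_inl_castSucc (z : Fin (n + 1) ⊕ Fin (n + 1) → F) (j : Fin n) :
    coxInvLin n F z (Sum.inl j.castSucc) = z (Sum.inl j.succ) := by
  simp [coxInvLin]

lemma coxInvLin_inr_last (z : Fin (n + 1) ⊕ Fin (n + 1) → F) :
    coxInvLin n F z (Sum.inr (Fin.last n)) = z (Sum.inl 0) := by
  simp [coxInvLin]

lemma coxInvLin_inr_castSucc (z : Fin (n + 1) ⊕ Fin (n + 1) → F) (j : Fin n) :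
    coxInvLin n F z (Sum.inr j.castSucc) = z (Sum.inr j.succ) := by
  simp [coxInvLin]

/-- The Coxeter-type element as an invertible matrix. -/
noncomputable def coxGL (n : ℕ) (F : Type*) [Field F] : GL (Fin (n + 1) ⊕ Fin (n + 1)) F :=
  glOfLin (coxLin n F) (coxInvLin n F)
    (by
      apply LinearMap.ext
      intro z
      funext idx
      rcases idx with i | i <;> induction i using Fin.cases <;>
        simp [coxLin_inl_zero, coxLin_inl_succ, coxLin_inr_zero, coxLin_inr_succ,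
          coxInvLin_inl_last, coxInvLin_inl_castSucc, coxInvLin_inr_last, coxInvLin_inr_castSucc])
    (by
      apply LinearMap.ext
      intro z
      funext idx
      rcases idx with i | i <;> induction i using Fin.lastCases <;>
        simp [coxLin_inl_zero, coxLin_inl_succ, coxLin_inr_zero, coxLin_inr_succ,
          coxInvLin_inl_last, coxInvLin_inl_castSucc, coxInvLin_inr_last, coxInvLin_inr_castSucc])

lemma coxGL_mulVec (z : Fin (n + 1) ⊕ Fin (n + 1) → F) :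
    ((coxGL n F : GL (Fin (n + 1) ⊕ Fin (n + 1)) F) :
      Matrix (Fin (n + 1) ⊕ Fin (n + 1)) (Fin (n + 1) ⊕ Fin (n + 1)) F) *ᵥ z = coxLin n F z := by
  rw [coxGL, glOfLin_mulVec]

theorem coxGL_mem : coxGL n F ∈ spGL (n + 1) F := by
  rw [mem_spGL_iff]
  intro x y
  rw [coxGL_mulVec, coxGL_mulVec, sf_eq, sf_eq, Fin.sum_univ_succ,
    Fin.sum_univ_castSucc (f := fun i => x (Sum.inr i) * y (Sum.inl i)
      - x (Sum.inl i) * y (Sum.inr i))]
  simp only [coxLin_inl_zero, coxLin_inl_succ, coxLin_inr_zero, coxLin_inr_succ]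
  ring

lemma cox_eB_castSucc (j : Fin n) :
    ((coxGL n F : GL (Fin (n + 1) ⊕ Fin (n + 1)) F) :
      Matrix (Fin (n + 1) ⊕ Fin (n + 1)) (Fin (n + 1) ⊕ Fin (n + 1)) F) *ᵥ eB j.castSucc
      = eB j.succ := by
  rw [coxGL_mulVec]
  funext idx
  rcases idx with i | i <;> induction i using Fin.cases <;>
    simp [coxLin_inl_zero, coxLin_inl_succ, coxLin_inr_zero, coxLin_inr_succ, eB_inl, eB_inr,
      Fin.castSucc_ne_last, (Fin.castSucc_ne_last _).symm, Fin.succ_ne_zero,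
      (Fin.succ_ne_zero _).symm]

lemma cox_eB_last :
    ((coxGL n F : GL (Fin (n + 1) ⊕ Fin (n + 1)) F) :
      Matrix (Fin (n + 1) ⊕ Fin (n + 1)) (Fin (n + 1) ⊕ Fin (n + 1)) F) *ᵥ eB (Fin.last n)
      = fB 0 := by
  rw [coxGL_mulVec]
  funext idx
  rcases idx with i | i <;> induction i using Fin.cases <;>
    simp [coxLin_inl_zero, coxLin_inl_succ, coxLin_inr_zero, coxLin_inr_succ, eB_inl, eB_inr,
      fB_inl, fB_inr,
      Fin.castSucc_ne_last, (Fin.castSucc_ne_last _).symm, Fin.succ_ne_zero,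
      (Fin.succ_ne_zero _).symm]

lemma cox_fB_castSucc (j : Fin n) :
    ((coxGL n F : GL (Fin (n + 1) ⊕ Fin (n + 1)) F) :
      Matrix (Fin (n + 1) ⊕ Fin (n + 1)) (Fin (n + 1) ⊕ Fin (n + 1)) F) *ᵥ fB j.castSucc
      = fB j.succ := by
  rw [coxGL_mulVec]
  funext idx
  rcases idx with i | i <;> induction i using Fin.cases <;>
    simp [coxLin_inl_zero, coxLin_inl_succ, coxLin_inr_zero, coxLin_inr_succ, fB_inl, fB_inr,
      Fin.castSucc_ne_last, (Fin.castSucc_ne_last _).symm, Fin.succ_ne_zero,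
      (Fin.succ_ne_zero _).symm]

lemma cox_fB_last :
    ((coxGL n F : GL (Fin (n + 1) ⊕ Fin (n + 1)) F) :
      Matrix (Fin (n + 1) ⊕ Fin (n + 1)) (Fin (n + 1) ⊕ Fin (n + 1)) F) *ᵥ fB (Fin.last n)
      = - eB 0 := by
  rw [coxGL_mulVec]
  funext idx
  rcases idx with i | i <;> induction i using Fin.cases <;>
    simp [coxLin_inl_zero, coxLin_inl_succ, coxLin_inr_zero, coxLin_inr_succ, eB_inl, eB_inr,
      fB_inl, fB_inr,
      Fin.castSucc_ne_last, (Fin.castSucc_ne_last _).symm, Fin.succ_ne_zero,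
      (Fin.succ_ne_zero _).symm]

lemma cox_blk (j : Fin n) {x : Fin (n + 1) ⊕ Fin (n + 1) → F} (hx : x ∈ blk j.castSucc) :
    ((coxGL n F : GL (Fin (n + 1) ⊕ Fin (n + 1)) F) :
      Matrix (Fin (n + 1) ⊕ Fin (n + 1)) (Fin (n + 1) ⊕ Fin (n + 1)) F) *ᵥ x ∈ blk j.succ := by
  obtain ⟨α, β, rfl⟩ := (mem_blk _ x).mp hx
  rw [Matrix.mulVec_add, Matrix.mulVec_smul, Matrix.mulVec_smul, cox_eB_castSucc,
    cox_fB_castSucc]
  exact (mem_blk _ _).mpr ⟨α, β, rfl⟩

/-- The final step: the Coxeter-type element, one long-root group and one mixing element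
generate everything. -/
theorem cox_all_centers (K : Subgroup (GL (Fin (n + 1) ⊕ Fin (n + 1)) F))
    (hw : coxGL n F ∈ K)
    (he0 : (eB 0 : Fin (n + 1) ⊕ Fin (n + 1) → F) ∈ transCenters K)
    (g : GL (Fin (n + 1) ⊕ Fin (n + 1)) F) (hgK : g ∈ K) (hgS : g ∈ spGL (n + 1) F)
    (hg : ∀ j : Fin (n + 1), j ≠ 0 → ∃ x₀ ∈ blk (0 : Fin (n + 1)), ∃ y₀ ∈ blk j,
      x₀ ≠ 0 ∧ y₀ ≠ 0 ∧
      (g : Matrix (Fin (n + 1) ⊕ Fin (n + 1)) (Fin (n + 1) ⊕ Fin (n + 1)) F) *ᵥ eB j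
        = x₀ + y₀) :
    ∀ v : Fin (n + 1) ⊕ Fin (n + 1) → F, v ∈ transCenters K := by
  have he : ∀ i : Fin (n + 1), (eB i : Fin (n + 1) ⊕ Fin (n + 1) → F) ∈ transCenters K := by
    intro i
    induction i using Fin.induction with
    | zero => exact he0
    | succ j ih =>
      rw [← cox_eB_castSucc]
      exact mulVec_mem_transCenters K _ hw coxGL_mem ih
  have hf0 : (fB 0 : Fin (n + 1) ⊕ Fin (n + 1) → F) ∈ transCenters K := by
    rw [← cox_eB_last]
    exact mulVec_mem_transCenters K _ hw coxGL_mem (he _)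
  have hf : ∀ i : Fin (n + 1), (fB i : Fin (n + 1) ⊕ Fin (n + 1) → F) ∈ transCenters K := by
    intro i
    induction i using Fin.induction with
    | zero => exact hf0
    | succ j ih =>
      rw [← cox_fB_castSucc]
      exact mulVec_mem_transCenters K _ hw coxGL_mem ih
  have hR0 : ∀ j : Fin (n + 1), j ≠ 0 → ∃ x₀ ∈ blk (0 : Fin (n + 1)), ∃ y₀ ∈ blk j,
      x₀ ≠ 0 ∧ y₀ ≠ 0 ∧ (x₀ + y₀ : Fin (n + 1) ⊕ Fin (n + 1) → F) ∈ transCenters K := by
    intro j hj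
    obtain ⟨x₀, hx₀, y₀, hy₀, hx₀0, hy₀0, h⟩ := hg j hj
    refine ⟨x₀, hx₀, y₀, hy₀, hx₀0, hy₀0, ?_⟩
    rw [← h]
    exact mulVec_mem_transCenters K g hgK hgS (he j)
  have hstep : ∀ a b : Fin n,
      (∃ x₀ ∈ blk a.castSucc, ∃ y₀ ∈ blk b.castSucc,
        x₀ ≠ 0 ∧ y₀ ≠ 0 ∧ (x₀ + y₀ : Fin (n + 1) ⊕ Fin (n + 1) → F) ∈ transCenters K) →
      (∃ x₀ ∈ blk a.succ, ∃ y₀ ∈ blk b.succ,
        x₀ ≠ 0 ∧ y₀ ≠ 0 ∧ (x₀ + y₀ : Fin (n + 1) ⊕ Fin (n + 1) → F) ∈ transCenters K) := by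
    rintro a b ⟨x₀, hx₀, y₀, hy₀, hx₀0, hy₀0, h⟩
    refine ⟨_, cox_blk a hx₀, _, cox_blk b hy₀, gl_mulVec_ne_zero _ hx₀0,
      gl_mulVec_ne_zero _ hy₀0, ?_⟩
    rw [← Matrix.mulVec_add]
    exact mulVec_mem_transCenters K _ hw coxGL_mem h
  have hlt : ∀ k : ℕ, ∀ a b : Fin (n + 1), a.val = k → a < b →
      ∃ x₀ ∈ blk a, ∃ y₀ ∈ blk b,
        x₀ ≠ 0 ∧ y₀ ≠ 0 ∧ (x₀ + y₀ : Fin (n + 1) ⊕ Fin (n + 1) → F) ∈ transCenters K := by
    intro k
    induction k with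
    | zero =>
      intro a b ha hab
      have ha0 : a = 0 := Fin.ext ha
      subst ha0
      exact hR0 b (ne_of_gt hab)
    | succ k ih =>
      intro a b ha hab
      have ha0 : a ≠ 0 := by
        intro h
        rw [h] at ha
        simp at ha
      have hb0 : b ≠ 0 := by
        intro h
        rw [h] at hab
        exact absurd hab (Fin.not_lt_zero a)
      obtain ⟨a', rfl⟩ := Fin.exists_succ_eq.mpr ha0
      obtain ⟨b', rfl⟩ := Fin.exists_succ_eq.mpr hb0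
      apply hstep
      apply ih
      · simpa using ha
      · simpa using hab
  have hR : ∀ a b : Fin (n + 1), a ≠ b → ∃ x₀ ∈ blk a, ∃ y₀ ∈ blk b, x₀ ≠ 0 ∧ y₀ ≠ 0 ∧
      (x₀ + y₀ : Fin (n + 1) ⊕ Fin (n + 1) → F) ∈ transCenters K := by
    intro a b hab
    rcases lt_or_gt_of_ne hab with h | h
    · exact hlt a.val a b rfl h
    · obtain ⟨y₀, hy₀, x₀, hx₀, hy₀0, hx₀0, h'⟩ := hlt b.val b a rfl h
      exact ⟨x₀, hx₀, y₀, hy₀, hx₀0, hy₀0, by rw [add_comm x₀ y₀]; exact h'⟩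
  exact all_centers K he hf hR

end Cfsg.Agent.Lib.Helper94.SpGen2
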