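import Cfsg.Agent.Lib.Helper94.SpGen2.Cox

set_option autoImplicit false
set_option linter.unusedSectionVars false
set_option linter.unusedSimpArgs false

namespace Cfsg.Agent.Lib.Helper94.SpGen2

open Cfsg Cfsg.Geo Cfsg.Agent.Lib.Helper94
open scoped MatrixGroups Matrix

variable {F : Type*} [Field F]

section diag

variable {ι : Type} [Fintype ι] [DecidableEq ι]

/-- A diagonal linear map. -/
def diagLin (d : ι → F) : (ι → F) →ₗ[F] (ι → F) where
  toFun z := fun i => d i * z i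
  map_add' x y := by
    funext i
    simp [mul_add]
  map_smul' c x := by
    funext i
    simp
    ring

/-- A diagonal invertible matrix. -/
noncomputable def diagGL (d : ι → Fˣ) : GL ι F :=
  glOfLin (diagLin (fun i => (d i : F))) (diagLin (fun i => (((d i)⁻¹ : Fˣ) : F)))
    (by
      apply LinearMap.ext
      intro z
      funext i
      simp [diagLin])
    (by
      apply LinearMap.ext
      intro z
      funext i
      simp [diagLin])

lemma diagGL_mulVec (d : ι → Fˣ) (z : ι → F) (i : ι) :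
    (((diagGL d : GL ι F) : Matrix ι ι F) *ᵥ z) i = (d i : F) * z i := by
  rw [diagGL, glOfLin_mulVec]
  rfl

lemma diagGL_mul (d d' : ι → Fˣ) : diagGL d * diagGL d' = diagGL (d * d') := by
  apply gl_ext
  intro z
  funext i
  rw [gl_mul_mulVec, diagGL_mulVec, diagGL_mulVec, diagGL_mulVec, Pi.mul_apply, Units.val_mul,
    mul_assoc]

lemma diagGL_one : diagGL (1 : ι → Fˣ) = 1 := by
  apply gl_ext
  intro z
  funext i
  rw [diagGL_mulVec, Units.val_one, Matrix.one_mulVec, Pi.one_apply, Units.val_one, one_mul]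

lemma diagGL_pow (d : ι → Fˣ) (n : ℕ) : diagGL d ^ n = diagGL (d ^ n) := by
  induction n with
  | zero => rw [pow_zero, pow_zero, diagGL_one]
  | succ n ih => rw [pow_succ, ih, diagGL_mul, pow_succ]

lemma diagGL_comm (d d' : ι → Fˣ) : diagGL d * diagGL d' = diagGL d' * diagGL d := by
  rw [diagGL_mul, diagGL_mul, mul_comm]

end diag

variable {m : ℕ}

lemma diagGL_mem_spGL (d : Fin m ⊕ Fin m → Fˣ) (h : ∀ i, d (Sum.inr i) * d (Sum.inl i) = 1) :
    diagGL d ∈ spGL m F := by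
  rw [mem_spGL_iff]
  intro x y
  rw [sf_eq, sf_eq]
  apply Finset.sum_congr rfl
  intro i _
  rw [diagGL_mulVec, diagGL_mulVec, diagGL_mulVec, diagGL_mulVec]
  have h' : (d (Sum.inr i) : F) * (d (Sum.inl i) : F) = 1 := by
    rw [← Units.val_mul, h i, Units.val_one]
  linear_combination (x (Sum.inr i) * y (Sum.inl i) - x (Sum.inl i) * y (Sum.inr i)) * h'

/-- The torus element scaling all `e_i` by `s` and all `f_i` by `s⁻¹`. -/
def hd (m : ℕ) (s : Fˣ) : Fin m ⊕ Fin m → Fˣ := Sum.elim (fun _ => s⁻¹) (fun _ => s)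

lemma hd_mem (s : Fˣ) : diagGL (hd m s) ∈ spGL m F :=
  diagGL_mem_spGL _ (fun i => by simp [hd])

lemma hd_pow (s : Fˣ) (j : ℕ) : hd m s ^ j = hd m (s ^ j) := by
  funext idx
  rcases idx with i | i <;> simp [hd]

lemma hd_eB (s : Fˣ) (i : Fin m) :
    ((diagGL (hd m s) : GL (Fin m ⊕ Fin m) F) : Matrix (Fin m ⊕ Fin m) (Fin m ⊕ Fin m) F) *ᵥ eB i
      = (s : F) • eB i := by
  funext idx
  rw [diagGL_mulVec]
  rcases idx with j | j <;> simp [hd, eB_inl, eB_inr]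

lemma hd_fB (s : Fˣ) (i : Fin m) :
    ((diagGL (hd m s) : GL (Fin m ⊕ Fin m) F) : Matrix (Fin m ⊕ Fin m) (Fin m ⊕ Fin m) F) *ᵥ fB i
      = ((s⁻¹ : Fˣ) : F) • fB i := by
  funext idx
  rw [diagGL_mulVec]
  rcases idx with j | j <;> simp [hd, fB_inl, fB_inr]

variable {n : ℕ}

/-- The conjugate of the torus element by the Coxeter-type element. -/
def td (n : ℕ) (s : Fˣ) : Fin (n + 1) ⊕ Fin (n + 1) → Fˣ :=
  Sum.elim (fun i => if i = Fin.last n then s else s⁻¹)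
    (fun i => if i = Fin.last n then s⁻¹ else s)

lemma td_mem (s : Fˣ) : diagGL (td n s) ∈ spGL (n + 1) F :=
  diagGL_mem_spGL _ (fun i => by
    by_cases h : i = Fin.last n <;> simp [td, h])

lemma td_fB_last (s : Fˣ) :
    ((diagGL (td n s) : GL (Fin (n + 1) ⊕ Fin (n + 1)) F) :
      Matrix (Fin (n + 1) ⊕ Fin (n + 1)) (Fin (n + 1) ⊕ Fin (n + 1)) F) *ᵥ fB (Fin.last n)
      = (s : F) • fB (Fin.last n) := by
  funext idx
  rw [diagGL_mulVec]
  rcases idx with j | j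
  · by_cases h : j = Fin.last n <;> simp [td, fB_inl, h]
  · simp [td, fB_inr]

lemma hd_cox (s : Fˣ) : diagGL (hd (n + 1) s) * coxGL n F = coxGL n F * diagGL (td n s) := by
  apply gl_ext
  intro z
  rw [gl_mul_mulVec, gl_mul_mulVec, coxGL_mulVec, coxGL_mulVec]
  funext idx
  rw [diagGL_mulVec]
  rcases idx with i | i <;> induction i using Fin.cases <;>
    simp [coxLin_inl_zero, coxLin_inl_succ, coxLin_inr_zero, coxLin_inr_succ, diagGL_mulVec, hd,
      td, Fin.castSucc_ne_last]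

/-- The vector `∑_{j ≠ 0} f_j`. -/
def vv (n : ℕ) (F : Type*) [Field F] : Fin (n + 1) ⊕ Fin (n + 1) → F :=
  Sum.elim (fun i => if i = 0 then 0 else 1) (fun _ => 0)

lemma vv_inl (j : Fin (n + 1)) : vv n F (Sum.inl j) = if j = 0 then 0 else 1 := rfl

lemma vv_inr (j : Fin (n + 1)) : vv n F (Sum.inr j) = 0 := rfl

lemma sf_e0_vv : sympForm (n + 1) F (eB 0) (vv n F) = 0 := by
  rw [sf_eB_left, vv_inl, if_pos rfl]

/-- The mixing element. -/
noncomputable def uS (n : ℕ) (F : Type*) [Field F] : GL (Fin (n + 1) ⊕ Fin (n + 1)) F :=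
  siegelSp (n + 1) (eB 0) (vv n F)

lemma uS_mem : uS n F ∈ spGL (n + 1) F := siegelSp_mem _ _

lemma uS_mulVec (x : Fin (n + 1) ⊕ Fin (n + 1) → F) :
    ((uS n F : GL (Fin (n + 1) ⊕ Fin (n + 1)) F) :
      Matrix (Fin (n + 1) ⊕ Fin (n + 1)) (Fin (n + 1) ⊕ Fin (n + 1)) F) *ᵥ x
      = x + sympForm (n + 1) F x (eB 0) • vv n F + sympForm (n + 1) F x (vv n F) • eB 0 :=
  siegelSp_mulVec _ _ sf_e0_vv x

lemma uS_eB (j : Fin (n + 1)) (hj : j ≠ 0) :
    ((uS n F : GL (Fin (n + 1) ⊕ Fin (n + 1)) F) :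
      Matrix (Fin (n + 1) ⊕ Fin (n + 1)) (Fin (n + 1) ⊕ Fin (n + 1)) F) *ᵥ eB j
      = eB 0 + eB j := by
  rw [uS_mulVec, sf_eB_right, eB_inl, sf_eB_left, vv_inl, if_neg hj]
  simp [add_comm]

lemma uS_eB_zero :
    ((uS n F : GL (Fin (n + 1) ⊕ Fin (n + 1)) F) :
      Matrix (Fin (n + 1) ⊕ Fin (n + 1)) (Fin (n + 1) ⊕ Fin (n + 1)) F) *ᵥ eB 0 = eB 0 := by
  rw [uS_mulVec, sf_self, sf_e0_vv]
  simp

lemma uS_fB (j : Fin (n + 1)) (hj : j ≠ 0) :
    ((uS n F : GL (Fin (n + 1) ⊕ Fin (n + 1)) F) :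
      Matrix (Fin (n + 1) ⊕ Fin (n + 1)) (Fin (n + 1) ⊕ Fin (n + 1)) F) *ᵥ fB j = fB j := by
  rw [uS_mulVec, sf_eB_right, fB_inl, if_neg (Ne.symm hj), sf_fB_left, vv_inr]
  simp

lemma uS_pow_card [Fintype F] : uS n F ^ Fintype.card F = 1 := by
  apply gl_ext
  intro x
  rw [uS, siegelSp_pow_mulVec _ _ sf_e0_vv, FiniteField.cast_card_eq_zero, zero_smul, add_zero,
    Units.val_one, Matrix.one_mulVec]

lemma siegelSp_smul (a b : Fin m ⊕ Fin m → F) (hab : sympForm m F a b = 0) (s : Fˣ) :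
    siegelSp m ((s : F) • a) (((s⁻¹ : Fˣ) : F) • b) = siegelSp m a b := by
  apply gl_ext
  intro x
  rw [siegelSp_mulVec _ _ (by rw [sf_smul_left, sf_smul_right, hab, mul_zero, mul_zero]),
    siegelSp_mulVec a b hab, sf_smul_right, sf_smul_right, smul_smul, smul_smul]
  have h1 : (s : F) * sympForm m F x a * ((s⁻¹ : Fˣ) : F) = sympForm m F x a := by
    rw [mul_comm, ← mul_assoc, ← Units.val_mul, inv_mul_cancel, Units.val_one, one_mul]
  have h2 : ((s⁻¹ : Fˣ) : F) * sympForm m F x b * (s : F) = sympForm m F x b := by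
    rw [mul_comm, ← mul_assoc, ← Units.val_mul, mul_inv_cancel, Units.val_one, one_mul]
  rw [h1, h2]

lemma hd_vv (s : Fˣ) :
    ((diagGL (hd (n + 1) s) : GL (Fin (n + 1) ⊕ Fin (n + 1)) F) :
      Matrix (Fin (n + 1) ⊕ Fin (n + 1)) (Fin (n + 1) ⊕ Fin (n + 1)) F) *ᵥ vv n F
      = ((s⁻¹ : Fˣ) : F) • vv n F := by
  funext idx
  rw [diagGL_mulVec]
  rcases idx with j | j <;> simp [hd, vv_inl, vv_inr]

lemma hd_uS (s : Fˣ) : diagGL (hd (n + 1) s) * uS n F = uS n F * diagGL (hd (n + 1) s) := by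
  have h := siegelSp_conj (diagGL (hd (n + 1) s)) (hd_mem s) (eB 0) (vv n F)
  rw [hd_eB, hd_vv, siegelSp_smul _ _ sf_e0_vv] at h
  have h' : diagGL (hd (n + 1) s) * uS n F * (diagGL (hd (n + 1) s))⁻¹ = uS n F := h
  calc diagGL (hd (n + 1) s) * uS n F
      = diagGL (hd (n + 1) s) * uS n F * (diagGL (hd (n + 1) s))⁻¹ * diagGL (hd (n + 1) s) := by
        group
    _ = uS n F * diagGL (hd (n + 1) s) := by rw [h']

/-- Every element of a finite field is a difference of two squares. -/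
lemma field_diff_squares [Fintype F] (c : F) : ∃ y z : F, c = y ^ 2 - z ^ 2 := by
  by_cases h2 : (2 : F) = 0
  · have : CharP F 2 := CharTwo.of_one_ne_zero_of_two_eq_zero one_ne_zero h2
    obtain ⟨y, hy⟩ := FiniteField.isSquare_of_char_two (ringChar.eq F 2) c
    exact ⟨y, 0, by rw [hy]; ring⟩
  · exact ⟨(c + 1) / 2, (c - 1) / 2, by field_simp; ring⟩

end Cfsg.Agent.Lib.Helper94.SpGen2
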